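import Cfsg.Agent.H50.G2Four.Orders
import Cfsg.Agent.H50.G2Four.Rep

/-!
# Groups of arbitrarily large order with the prime graph of G₂(4)

The extensions of powers of the natural six-dimensional module by G₂(4).
-/

set_option autoImplicit false

namespace Cfsg.Agent.H50.G2Four

open Cfsg.Lie Matrix

/-- The module. -/
abbrev W (N : ℕ) := Fin N → Fin 6 → K4

/-- The diagonal action on the module. -/
def actEquiv (N : ℕ) (g : ↥grp) : W N ≃+ W N where
  toFun v := fun i => ((g : GL (Fin 6) K4) : M6 K4) *ᵥ v i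
  invFun v := fun i => (((g⁻¹ : ↥grp) : GL (Fin 6) K4) : M6 K4) *ᵥ v i
  left_inv v := by funext i; simp [Matrix.mulVec_mulVec, ← Units.val_mul]
  right_inv v := by funext i; simp [Matrix.mulVec_mulVec, ← Units.val_mul]
  map_add' v w := by funext i; simp [Matrix.mulVec_add]

/-- The action as a homomorphism. -/
def actHom (N : ℕ) : ↥grp →* MulAut (Multiplicative (W N)) where
  toFun g := AddEquiv.toMultiplicative (actEquiv N g)
  map_one' := by
    refine MulEquiv.ext fun v => ?_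
    apply Multiplicative.toAdd.injective
    funext i
    simp [actEquiv]
  map_mul' g h := by
    refine MulEquiv.ext fun v => ?_
    apply Multiplicative.toAdd.injective
    funext i
    simp [actEquiv, Matrix.mulVec_mulVec]

/-- The extension. -/
abbrev Ext (N : ℕ) := SemidirectProduct (Multiplicative (W N)) ↥grp (actHom N)

theorem fixedFree_of_inverse {u K : M6 K4} (hK : K * (u - 1) = 1) {v : Fin 6 → K4} (hv : u *ᵥ v = v) : v = 0 := by
  have : v = (K * (u - 1)) *ᵥ v := by rw [hK, Matrix.one_mulVec]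
  rw [this, ← Matrix.mulVec_mulVec, Matrix.sub_mulVec, Matrix.one_mulVec, hv, sub_self, Matrix.mulVec_zero]

/-- Elements of order `p` fix no vector when the Sylow subgroups have order `p` and one element does. -/
theorem fixedFree_of_order {p : ℕ} (hp : p.Prime) (hpp : ¬ p ^ 2 ∣ Nat.card ↥grp) {u : ↥grp} (hu : orderOf u = p)
    {K : M6 K4} (hK : K * (((u : GL (Fin 6) K4) : M6 K4) - 1) = 1) {a : ↥grp} (ha : orderOf a = p)
    {v : Fin 6 → K4} (hv : ((a : GL (Fin 6) K4) : M6 K4) *ᵥ v = v) : v = 0 := by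
  haveI : Fact p.Prime := ⟨hp⟩
  have hc : ∀ z : ↥grp, orderOf z = p → Nat.card (Subgroup.zpowers z) = p ^ (Nat.card ↥grp).factorization p := by
    intro z hz
    have h1 : (Nat.card ↥grp).factorization p = 1 := by
      refine le_antisymm ?_ ?_
      · by_contra h2
        exact hpp ((pow_dvd_pow p (by omega : 2 ≤ (Nat.card ↥grp).factorization p)).trans (Nat.ordProj_dvd _ _))
      · exact hp.factorization_pos_of_dvd Nat.card_pos.ne' (hz ▸ orderOf_dvd_natCard z)
    rw [Nat.card_zpowers, hz, h1, pow_one]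
  obtain ⟨h, hh⟩ := MulAction.exists_smul_eq ↥grp (Sylow.ofCard (Subgroup.zpowers a) (hc a ha))
    (Sylow.ofCard (Subgroup.zpowers u) (hc u hu))
  have he := congrArg (fun P : Sylow p ↥grp => (P : Subgroup ↥grp)) hh
  rw [Sylow.coe_subgroup_smul, Subgroup.pointwise_smul_def] at he
  have hmem : u ∈ (Subgroup.zpowers a).map (MulAut.conj h).toMonoidHom := by
    have hu' := Subgroup.mem_zpowers u
    simp only [Sylow.coe_ofCard] at he
    exact he ▸ hu'
  obtain ⟨z, hz, huz⟩ := hmem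
  have hpow : ∀ m : ℕ, ((a : GL (Fin 6) K4) : M6 K4) ^ m *ᵥ v = v := by
    intro m
    induction m with
    | zero => simp
    | succ m ih => rw [pow_succ, ← Matrix.mulVec_mulVec, hv, ih]
  obtain ⟨m, -, rfl⟩ := (mem_powers_iff_mem_range_orderOf (x := a)).mp
    ((mem_powers_iff_mem_zpowers (x := a)).mpr hz) |> Finset.mem_image.mp
  set H := ((h : GL (Fin 6) K4) : M6 K4)
  have hfix : ((u : GL (Fin 6) K4) : M6 K4) *ᵥ (H *ᵥ v) = H *ᵥ v := by
    have hu2 : u * h = h * a ^ m := by rw [← huz]; simp [mul_assoc]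
    have := congrArg (fun g : ↥grp => ((g : GL (Fin 6) K4) : M6 K4)) hu2
    simp only [Subgroup.coe_mul, Units.val_mul, SubmonoidClass.coe_pow, Units.val_pow_eq_pow_val] at this
    rw [Matrix.mulVec_mulVec, this, ← Matrix.mulVec_mulVec, hpow]
  have hH := fixedFree_of_inverse hK hfix
  have : v = (((h⁻¹ : ↥grp) : GL (Fin 6) K4) : M6 K4) *ᵥ (H *ᵥ v) := by
    simp [H, Matrix.mulVec_mulVec, ← Units.val_mul]
  rw [this, hH, Matrix.mulVec_zero]

/-- The element with matrix `u7`. -/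
def e7 : ↥grp := ⟨gK 6 1 * gK 7 1 * gK 2 1,
  mul_mem (mul_mem (gK_mem (by norm_num) _) (gK_mem (by norm_num) _)) (gK_mem (by norm_num) _)⟩

/-- The element with matrix `u13`. -/
def e13 : ↥grp := ⟨gK 6 1 * gK 7 1 * gK 4 .w * gK 2 1,
  mul_mem (mul_mem (mul_mem (gK_mem (by norm_num) _) (gK_mem (by norm_num) _)) (gK_mem (by norm_num) _))
    (gK_mem (by norm_num) _)⟩

/-- The element with matrix `u6`. -/
def e6 : ↥grp := ⟨gK 6 1 * gK 7 1 * gK 5 1,
  mul_mem (mul_mem (gK_mem (by norm_num) _) (gK_mem (by norm_num) _)) (gK_mem (by norm_num) _)⟩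

/-- The element with matrix `u10`. -/
def e10 : ↥grp := ⟨gK 6 1 * gK 7 1 * gK 5 .w,
  mul_mem (mul_mem (gK_mem (by norm_num) _) (gK_mem (by norm_num) _)) (gK_mem (by norm_num) _)⟩

theorem coe_e7 : ((e7 : GL (Fin 6) K4) : M6 K4) = u7 := rfl
theorem coe_e13 : ((e13 : GL (Fin 6) K4) : M6 K4) = u13 := rfl
theorem coe_e6 : ((e6 : GL (Fin 6) K4) : M6 K4) = u6 := rfl
theorem coe_e10 : ((e10 : GL (Fin 6) K4) : M6 K4) = u10 := rfl

theorem coe_pow_eq (g : ↥grp) (n : ℕ) :
    g ^ n = 1 ↔ ((g : GL (Fin 6) K4) : M6 K4) ^ n = 1 := by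
  rw [← Units.val_pow_eq_pow_val, Units.val_eq_one, ← SubmonoidClass.coe_pow, OneMemClass.coe_eq_one]

theorem orderOf_prime_of_inverse {g : ↥grp} {K : M6 K4} {p : ℕ} (hp : p.Prime)
    (h : ((g : GL (Fin 6) K4) : M6 K4) ^ p = 1) (hK : K * (((g : GL (Fin 6) K4) : M6 K4) - 1) = 1) :
    orderOf g = p := by
  haveI : Fact p.Prime := ⟨hp⟩
  refine orderOf_eq_prime ((coe_pow_eq g p).mpr h) fun h1 => ?_
  subst h1
  rw [OneMemClass.coe_one, Units.val_one, sub_self, Matrix.mul_zero] at hK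
  exact absurd (congrFun (congrFun hK 0) 0) (by simp)

theorem orderOf_two_mul {g : ↥grp} {q : ℕ} (hq : q.Prime) (h : ((g : GL (Fin 6) K4) : M6 K4) ^ (2 * q) = 1)
    (h1 : ((g : GL (Fin 6) K4) : M6 K4) ^ q ≠ 1) (h2 : ((g : GL (Fin 6) K4) : M6 K4) ^ 2 ≠ 1) :
    orderOf g = 2 * q := by
  obtain ⟨a, b, ha, hb, he⟩ := dvd_mul.mp (orderOf_dvd_of_pow_eq_one ((coe_pow_eq g _).mpr h))
  rcases (Nat.dvd_prime Nat.prime_two).mp ha with rfl | rfl
  · exfalso
    refine h1 ((coe_pow_eq g q).mp (orderOf_dvd_iff_pow_eq_one.mp ?_))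
    rw [he, one_mul]; exact hb
  · rcases (Nat.dvd_prime hq).mp hb with rfl | rfl
    · exfalso
      exact h2 ((coe_pow_eq g 2).mp (orderOf_dvd_iff_pow_eq_one.mp (by rw [he, mul_one])))
    · exact he

theorem exists_same_prime_graph {F : Type*} [Field F] [Fintype F] (hF : Fintype.card F = 4) (N : ℕ) :
    ∃ (H : Type) (_ : Group H) (_ : Finite H), N < Nat.card H ∧
      ((∀ p : ℕ, p.Prime → (p ∣ Nat.card ↥(chevG2.group F) ↔ p ∣ Nat.card H)) ∧
      (∀ p q : ℕ, p.Prime → q.Prime → p ≠ q →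
        ((∃ g : ↥(chevG2.group F), orderOf g = p * q) ↔ (∃ g : H, orderOf g = p * q)))) := by
  obtain ⟨E⟩ := nonempty_equiv hF
  have hcard : Nat.card ↥grp = 251596800 := by
    rw [← Nat.card_congr E.toEquiv, Cfsg.Agent.S1059.result hF]; norm_num
  have hO : ∀ n, (∃ g : ↥(chevG2.group F), orderOf g = n) ↔ ∃ g : ↥grp, orderOf g = n := fun n =>
    ⟨fun ⟨g, hg⟩ => ⟨E g, by rw [E.orderOf_eq, hg]⟩, fun ⟨g, hg⟩ => ⟨E.symm g, by rw [E.symm.orderOf_eq, hg]⟩⟩
  haveI : Finite (Ext N) := Finite.of_equiv _ SemidirectProduct.equivProd.symm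
  have hW : Nat.card (Multiplicative (W N)) = 2 ^ (12 * N) := by
    rw [Nat.card_congr Multiplicative.toAdd, Nat.card_eq_fintype_card, Fintype.card_fun, Fintype.card_fun,
      show Fintype.card K4 = 4 from rfl, Fintype.card_fin, Fintype.card_fin, pow_mul]
    norm_num
  have hH : Nat.card (Ext N) = 2 ^ (12 * N) * 251596800 := by rw [SemidirectProduct.card, hW, hcard]
  have hsq : ∀ w : Multiplicative (W N), w ^ 2 = 1 := fun w => by
    apply Multiplicative.toAdd.injective
    funext i j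
    rw [toAdd_pow, toAdd_one, two_nsmul]
    exact (by decide : ∀ x : K4, x + x = 0) _
  refine ⟨Ext N, inferInstance, inferInstance, ?_, fun p hp => ?_, fun p q hp hq hpq => ?_⟩
  · rw [hH]
    have h1 : N < 2 ^ N := Nat.lt_two_pow_self
    have h2 : (2 : ℕ) ^ N ≤ 2 ^ (12 * N) := Nat.pow_le_pow_right (by norm_num) (by omega)
    omega
  · rw [Nat.card_congr E.toEquiv, hH, hcard]
    refine ⟨fun h => h.mul_left _, fun h => (hp.dvd_mul.mp h).elim (fun h' => ?_) id⟩
    rw [(Nat.prime_dvd_prime_iff_eq hp Nat.prime_two).mp (hp.dvd_of_dvd_pow h')]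
    norm_num
  rw [hO]
  constructor
  · rintro ⟨g, hg⟩
    exact ⟨SemidirectProduct.inr g, by rw [orderOf_injective _ SemidirectProduct.inr_injective, hg]⟩
  rintro ⟨g, hg⟩
  set a := SemidirectProduct.rightHom g
  have hd : orderOf a ∣ p * q := hg ▸ orderOf_map_dvd _ g
  by_cases hfull : orderOf a = p * q
  · exact ⟨a, hfull⟩
  have hker : ∀ m, a ^ m = 1 → g ^ (m * 2) = 1 := by
    intro m hm
    have : g ^ m ∈ (SemidirectProduct.inl : Multiplicative (W N) →* Ext N).range := by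
      rw [SemidirectProduct.range_inl_eq_ker_rightHom, MonoidHom.mem_ker, map_pow, hm]
    obtain ⟨w, hw⟩ := this
    rw [pow_mul, ← hw, ← map_pow, hsq, map_one]
  have hdvd : p * q ∣ orderOf a * 2 := hg ▸ orderOf_dvd_of_pow_eq_one (hker _ (pow_orderOf_eq_one a))
  have two : ∀ r, r.Prime → r ≠ 2 → orderOf g = 2 * r → orderOf a = r →
      ∃ x : ↥grp, orderOf x = 2 * r := by
    intro r hr hr2 hgo hao
    have hrd : r ∣ 251596800 := hcard ▸ hao ▸ orderOf_dvd_natCard a
    have hr5 : r ∈ ({2, 3, 5, 7, 13} : Finset ℕ) := by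
      rw [show (251596800 : ℕ) = 2 ^ 12 * (3 ^ 3 * (5 ^ 2 * (7 * 13))) by norm_num] at hrd
      simp only [Finset.mem_insert, Finset.mem_singleton]
      rcases hr.dvd_mul.mp hrd with h | h
      · left; exact (Nat.prime_dvd_prime_iff_eq hr (by norm_num)).mp (hr.dvd_of_dvd_pow h)
      right
      rcases hr.dvd_mul.mp h with h | h
      · left; exact (Nat.prime_dvd_prime_iff_eq hr (by norm_num)).mp (hr.dvd_of_dvd_pow h)
      right
      rcases hr.dvd_mul.mp h with h | h
      · left; exact (Nat.prime_dvd_prime_iff_eq hr (by norm_num)).mp (hr.dvd_of_dvd_pow h)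
      right
      rcases hr.dvd_mul.mp h with h | h
      · left; exact (Nat.prime_dvd_prime_iff_eq hr (by norm_num)).mp h
      · right; exact (Nat.prime_dvd_prime_iff_eq hr (by norm_num)).mp h
    simp only [Finset.mem_insert, Finset.mem_singleton] at hr5
    have bad : ∀ {u : ↥grp} {K : M6 K4}, orderOf u = r → ¬ r ^ 2 ∣ 251596800 →
        K * (((u : GL (Fin 6) K4) : M6 K4) - 1) = 1 → False := by
      intro u K hu hrr hK
      have hm : g ^ r ∈ (SemidirectProduct.inl : Multiplicative (W N) →* Ext N).range := by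
        rw [SemidirectProduct.range_inl_eq_ker_rightHom, MonoidHom.mem_ker, map_pow]
        exact hao ▸ pow_orderOf_eq_one a
      obtain ⟨w, hw⟩ := hm
      have hcomm : g * SemidirectProduct.inl w = SemidirectProduct.inl w * g := by
        rw [hw]; exact ((Commute.refl g).pow_right r).eq
      have hleft := congrArg SemidirectProduct.left hcomm
      simp only [SemidirectProduct.mul_left, SemidirectProduct.left_inl, SemidirectProduct.right_inl, map_one,
        MulAut.one_apply, mul_comm w, mul_right_inj] at hleft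
      have hw0 : w = 1 := by
        apply Multiplicative.toAdd.injective
        funext i
        have hi := congrFun (congrArg Multiplicative.toAdd hleft) i
        exact fixedFree_of_order hr (hcard.symm ▸ hrr) hu hK hao hi
      rw [hw0, map_one] at hw
      have : orderOf g ∣ r := orderOf_dvd_of_pow_eq_one hw.symm
      rw [hgo] at this
      have := Nat.le_of_dvd hr.pos this
      have := hr.two_le
      omega
    rcases hr5 with rfl | rfl | rfl | rfl | rfl
    · exact absurd rfl hr2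
    · exact ⟨e6, orderOf_two_mul hr (coe_e6 ▸ u6_pow.1) (coe_e6 ▸ u6_pow.2.1) (coe_e6 ▸ u6_pow.2.2)⟩
    · exact ⟨e10, orderOf_two_mul hr (coe_e10 ▸ u10_pow.1) (coe_e10 ▸ u10_pow.2.1) (coe_e10 ▸ u10_pow.2.2)⟩
    · exact (bad (u := e7) (K := inv7) (orderOf_prime_of_inverse hr (coe_e7 ▸ u7_pow) (coe_e7 ▸ inv7_mul))
        (by norm_num) (coe_e7 ▸ inv7_mul)).elim
    · exact (bad (u := e13) (K := inv13) (orderOf_prime_of_inverse hr (coe_e13 ▸ u13_pow) (coe_e13 ▸ inv13_mul))
        (by norm_num) (coe_e13 ▸ inv13_mul)).elim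
  obtain ⟨x, y, hx, hy, hxy⟩ := dvd_mul.mp hd
  rcases (Nat.dvd_prime hp).mp hx with rfl | rfl <;> rcases (Nat.dvd_prime hq).mp hy with rfl | rfl
  · exfalso
    rw [hxy, one_mul, one_mul] at hdvd
    have := Nat.le_of_dvd (by norm_num) hdvd
    nlinarith [hp.two_le, hq.two_le]
  · rw [one_mul] at hxy
    rw [hxy, mul_comm y 2] at hdvd
    have hp2 : p = 2 := (Nat.prime_dvd_prime_iff_eq hp Nat.prime_two).mp
      (Nat.dvd_of_mul_dvd_mul_right hq.pos hdvd)
    subst hp2
    exact two y hq hpq.symm hg hxy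
  · rw [mul_one] at hxy
    rw [hxy] at hdvd
    have hq2 : q = 2 := (Nat.prime_dvd_prime_iff_eq hq Nat.prime_two).mp
      (Nat.dvd_of_mul_dvd_mul_left hp.pos hdvd)
    subst hq2
    rw [mul_comm]
    exact two x hp hpq (by rw [hg, mul_comm]) hxy
  · exact absurd hxy hfull

end Cfsg.Agent.H50.G2Four
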