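import Cfsg.Agent.H50.G2Four.Model

/-!
# Orders of four explicit elements
-/

set_option autoImplicit false
set_option maxRecDepth 100000
set_option maxHeartbeats 4000000

namespace Cfsg.Agent.H50.G2Four

/-- A literal power. -/
def u7L : M6 K4 :=
  !![.one, .zero, .zero, .zero, .zero, .one;
    .one, .one, .zero, .one, .zero, .one;
    .one, .one, .one, .one, .one, .one;
    .zero, .zero, .one, .one, .one, .zero;
    .zero, .zero, .one, .one, .zero, .zero;
    .zero, .zero, .zero, .zero, .one, .one]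

/-- A literal power. -/
def u7p2 : M6 K4 :=
  !![.one, .zero, .zero, .zero, .one, .zero;
    .zero, .one, .one, .zero, .zero, .one;
    .one, .zero, .one, .zero, .one, .zero;
    .one, .one, .one, .one, .zero, .one;
    .one, .one, .zero, .zero, .zero, .one;
    .zero, .zero, .one, .one, .one, .one]

/-- A literal power. -/
def u7p4 : M6 K4 :=
  !![.zero, .one, .zero, .zero, .one, .one;
    .one, .one, .one, .one, .zero, .zero;
    .one, .one, .one, .zero, .zero, .one;
    .one, .zero, .zero, .zero, .one, .one;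
    .one, .one, .zero, .one, .zero, .zero;
    .one, .zero, .one, .zero, .zero, .one]

/-- A literal power. -/
def u13L : M6 K4 :=
  !![.one, .w, .zero, .w, .zero, .one;
    .one, .w1, .zero, .w1, .zero, .one;
    .one, .w1, .one, .zero, .one, .one;
    .zero, .zero, .one, .w, .one, .zero;
    .zero, .zero, .one, .w, .zero, .w;
    .zero, .zero, .zero, .zero, .one, .w1]

/-- A literal power. -/
def u13p2 : M6 K4 :=
  !![.w1, .w1, .w, .zero, .w1, .zero;
    .w, .zero, .w1, .one, .w, .one;
    .w1, .w1, .zero, .w, .zero, .w;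
    .one, .w1, .w, .one, .w1, .w1;
    .one, .w1, .w1, .w1, .one, .zero;
    .zero, .zero, .one, .w, .w1, .zero]

/-- A literal power. -/
def u13p4 : M6 K4 :=
  !![.one, .one, .one, .w, .zero, .zero;
    .zero, .one, .one, .w1, .w1, .w;
    .one, .w1, .w, .w, .w1, .w;
    .one, .w1, .w1, .w, .zero, .w1;
    .w, .zero, .w, .w, .one, .zero;
    .w, .zero, .one, .w, .w, .w1]

/-- A literal power. -/
def u13p8 : M6 K4 :=
  !![.w, .w, .w1, .zero, .zero, .one;
    .zero, .zero, .w, .w, .zero, .w1;
    .w1, .w, .w1, .w, .w1, .w;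
    .one, .one, .one, .w1, .one, .w1;
    .zero, .w, .w, .one, .zero, .w;
    .w1, .zero, .one, .zero, .zero, .one]

/-- A literal power. -/
def u6L : M6 K4 :=
  !![.one, .zero, .zero, .zero, .zero, .zero;
    .one, .one, .one, .zero, .zero, .zero;
    .one, .one, .zero, .zero, .zero, .zero;
    .zero, .zero, .one, .one, .one, .zero;
    .zero, .zero, .one, .one, .zero, .zero;
    .zero, .zero, .zero, .zero, .one, .one]

/-- A literal power. -/
def u6p2 : M6 K4 :=
  !![.one, .zero, .zero, .zero, .zero, .zero;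
    .one, .zero, .one, .zero, .zero, .zero;
    .zero, .one, .one, .zero, .zero, .zero;
    .one, .one, .zero, .zero, .one, .zero;
    .one, .one, .one, .one, .one, .zero;
    .zero, .zero, .one, .one, .one, .one]

/-- A literal power. -/
def u6p3 : M6 K4 :=
  !![.one, .zero, .zero, .zero, .zero, .zero;
    .zero, .one, .zero, .zero, .zero, .zero;
    .zero, .zero, .one, .zero, .zero, .zero;
    .zero, .one, .zero, .one, .zero, .zero;
    .one, .zero, .one, .zero, .one, .zero;
    .one, .one, .zero, .zero, .zero, .one]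

/-- A literal power. -/
def u10L : M6 K4 :=
  !![.one, .zero, .zero, .zero, .zero, .zero;
    .one, .one, .w, .zero, .zero, .zero;
    .one, .one, .w1, .zero, .zero, .zero;
    .zero, .zero, .one, .one, .w, .zero;
    .zero, .zero, .one, .one, .w1, .zero;
    .zero, .zero, .zero, .zero, .one, .one]

/-- A literal power. -/
def u10p2 : M6 K4 :=
  !![.one, .zero, .zero, .zero, .zero, .zero;
    .w, .w1, .w1, .zero, .zero, .zero;
    .w1, .w, .zero, .zero, .zero, .zero;
    .one, .one, .zero, .w1, .w1, .zero;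
    .one, .one, .one, .w, .zero, .zero;
    .zero, .zero, .one, .one, .w, .one]

/-- A literal power. -/
def u10p4 : M6 K4 :=
  !![.one, .zero, .zero, .zero, .zero, .zero;
    .one, .w1, .w, .zero, .zero, .zero;
    .zero, .one, .one, .zero, .zero, .zero;
    .w1, .w1, .zero, .w1, .w, .zero;
    .w, .w1, .w1, .one, .one, .zero;
    .zero, .one, .w1, .one, .one, .one]

/-- A literal power. -/
def u10p5 : M6 K4 :=
  !![.one, .zero, .zero, .zero, .zero, .zero;
    .zero, .one, .zero, .zero, .zero, .zero;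
    .zero, .zero, .one, .zero, .zero, .zero;
    .zero, .w1, .zero, .one, .zero, .zero;
    .w, .zero, .w1, .zero, .one, .zero;
    .w, .w, .zero, .zero, .zero, .one]

theorem u7_pow : u7 ^ 7 = 1 := by
  have h1 : u7 = u7L := by decide +kernel
  have h2 : u7L * u7L = u7p2 := by decide +kernel
  have h4 : u7p2 * u7p2 = u7p4 := by decide +kernel
  have h7 : u7p4 * (u7p2 * u7L) = 1 := by decide +kernel
  rw [← h4, ← h2, ← h1] at h7
  rw [← h7]
  simp only [pow_succ, pow_zero, one_mul, mul_assoc]

theorem u13_pow : u13 ^ 13 = 1 := by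
  have h1 : u13 = u13L := by decide +kernel
  have h2 : u13L * u13L = u13p2 := by decide +kernel
  have h4 : u13p2 * u13p2 = u13p4 := by decide +kernel
  have h8 : u13p4 * u13p4 = u13p8 := by decide +kernel
  have h13 : u13p8 * (u13p4 * u13L) = 1 := by decide +kernel
  rw [← h8, ← h4, ← h2, ← h1] at h13
  rw [← h13]
  simp only [pow_succ, pow_zero, one_mul, mul_assoc]

theorem u6_pow : u6 ^ 6 = 1 ∧ u6 ^ 3 ≠ 1 ∧ u6 ^ 2 ≠ 1 := by
  have h1 : u6 = u6L := by decide +kernel
  have h2 : u6L * u6L = u6p2 := by decide +kernel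
  have h3 : u6p2 * u6L = u6p3 := by decide +kernel
  have h6 : u6p3 * u6p3 = 1 := by decide +kernel
  have n3 : u6p3 ≠ 1 := by decide +kernel
  have n2 : u6p2 ≠ 1 := by decide +kernel
  have e2 : u6 ^ 2 = u6p2 := by rw [pow_two, h1, h2]
  have e3 : u6 ^ 3 = u6p3 := by rw [pow_succ, e2, h1, h3]
  exact ⟨by rw [← h6, ← e3, ← pow_add], e3 ▸ n3, e2 ▸ n2⟩

theorem u10_pow : u10 ^ 10 = 1 ∧ u10 ^ 5 ≠ 1 ∧ u10 ^ 2 ≠ 1 := by
  have h1 : u10 = u10L := by decide +kernel
  have h2 : u10L * u10L = u10p2 := by decide +kernel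
  have h4 : u10p2 * u10p2 = u10p4 := by decide +kernel
  have h5 : u10p4 * u10L = u10p5 := by decide +kernel
  have h10 : u10p5 * u10p5 = 1 := by decide +kernel
  have n5 : u10p5 ≠ 1 := by decide +kernel
  have n2 : u10p2 ≠ 1 := by decide +kernel
  have e2 : u10 ^ 2 = u10p2 := by rw [pow_two, h1, h2]
  have e4 : u10 ^ 4 = u10p4 := by rw [← h4, ← e2, ← pow_add]
  have e5 : u10 ^ 5 = u10p5 := by rw [pow_succ, e4, h1, h5]
  exact ⟨by rw [← h10, ← e5, ← pow_add], e5 ▸ n5, e2 ▸ n2⟩

end Cfsg.Agent.H50.G2Four
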